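import Mathlib
import Cfsg.Agent.H882.Sc.Gen

/-!
# The number of cycles of a permutation (helper94)

* `orb_eq_sum` : the number of cycles (fixed points included) is the sum of the inverse periods;
* `orb_parity` : an even permutation has as many cycles as points, modulo 2;
* `orb_prime` : elements of prime order;
* `ree` : two permutations generating a transitive group (Ree's inequality, from Scott's lemma).
-/

set_option autoImplicit false

namespace Cfsg.Agent.FP3.Red

open MulAction Subgroup

variable {X : Type*}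

/-- the number of cycles of a permutation, fixed points included -/
noncomputable def orb (σ : Equiv.Perm X) : ℕ := Nat.card (orbitRel.Quotient (zpowers σ) X)

theorem mem_orbit_iff_sameCycle (σ : Equiv.Perm X) (x y : X) : y ∈ orbit (zpowers σ) x ↔ σ.SameCycle x y := by
  constructor
  · rintro ⟨⟨_, k, rfl⟩, rfl⟩
    exact ⟨k, rfl⟩
  · rintro ⟨k, rfl⟩
    exact ⟨⟨σ ^ k, k, rfl⟩, rfl⟩

theorem period_eq_card [Finite X] (σ : Equiv.Perm X) (x : X) : period σ x = Nat.card (orbit (zpowers σ) x) := by
  have := Fintype.ofFinite (orbit (zpowers σ) x)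
  rw [period_eq_minimalPeriod, minimalPeriod_eq_card, Nat.card_eq_fintype_card]

theorem period_pos' [Finite X] (σ : Equiv.Perm X) (x : X) : 0 < period σ x :=
  period_pos_of_orderOf_pos (orderOf_pos σ) x

theorem orb_eq_sum [Fintype X] (σ : Equiv.Perm X) : (orb σ : ℚ) = ∑ x : X, (1 : ℚ) / period σ x := by
  classical
  have : Fintype (orbitRel.Quotient (zpowers σ) X) := Fintype.ofFinite _
  let q : X → orbitRel.Quotient (zpowers σ) X := fun x => Quotient.mk'' x
  rw [← Finset.sum_fiberwise Finset.univ q, orb, Nat.card_eq_fintype_card, ← Finset.card_univ,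
    Finset.card_eq_sum_ones, Nat.cast_sum]
  apply Finset.sum_congr rfl
  intro o _
  obtain ⟨x, rfl⟩ : ∃ x, q x = o := Quotient.exists_rep o
  have h1 : ∀ y, q y = q x ↔ y ∈ orbit (zpowers σ) x := fun y => Quotient.eq''
  have h2 : (Finset.univ.filter fun y => q y = q x).card = period σ x := by
    rw [period_eq_card, ← Fintype.card_subtype, ← Nat.card_eq_fintype_card]
    exact Nat.card_congr (Equiv.subtypeEquivRight h1)
  have h3 : ∀ y ∈ Finset.univ.filter (fun y => q y = q x), (1 : ℚ) / period σ y = 1 / period σ x := by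
    intro y hy
    rw [Finset.mem_filter, h1] at hy
    rw [period_eq_card, period_eq_card, orbit_eq_iff.2 hy.2]
  rw [Finset.sum_congr rfl h3, Finset.sum_const, h2, nsmul_eq_mul]
  have h4 : (period σ x : ℚ) ≠ 0 := Nat.cast_ne_zero.2 (period_pos' σ x).ne'
  field_simp
  simp

theorem orb_eq_cycle [Fintype X] [DecidableEq X] (σ : Equiv.Perm X) :
    orb σ + σ.support.card = Fintype.card X + Multiset.card σ.cycleType := by
  have h0 : (orb σ : ℚ) = (Fintype.card X - σ.support.card : ℚ) + Multiset.card σ.cycleType := by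
    rw [orb_eq_sum, ← Finset.sum_add_sum_compl σ.support, add_comm]
    congr 1
    · have h1 : ∀ y ∈ σ.supportᶜ, (1 : ℚ) / period σ y = 1 := by
        intro y hy
        rw [Finset.mem_compl, Equiv.Perm.notMem_support] at hy
        rw [period_eq_one_iff.2 hy]
        simp
      rw [Finset.sum_congr rfl h1, Finset.sum_const, Finset.card_compl, nsmul_eq_mul, mul_one,
        Nat.cast_sub (Finset.card_le_univ _)]
    · rw [← Finset.sum_fiberwise_of_maps_to (t := σ.cycleFactorsFinset) (g := fun x => σ.cycleOf x)
        (fun x hx => Equiv.Perm.cycleOf_mem_cycleFactorsFinset_iff.2 hx), Equiv.Perm.cycleType_def,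
        Multiset.card_map, Finset.card_val, Finset.card_eq_sum_ones, Nat.cast_sum]
      apply Finset.sum_congr rfl
      intro c hc
      have h1 : σ.support.filter (fun x => σ.cycleOf x = c) = c.support := by
        ext x
        rw [Finset.mem_filter, eq_comm, Equiv.Perm.eq_cycleOf_of_mem_cycleFactorsFinset_iff σ c hc]
        exact ⟨fun h => h.2, fun h => ⟨Equiv.Perm.mem_cycleFactorsFinset_support_le hc h, h⟩⟩
      have h2 : ∀ y ∈ c.support, (1 : ℚ) / period σ y = 1 / c.support.card := by
        intro y hy
        have h3 : y ∈ σ.support := Equiv.Perm.mem_cycleFactorsFinset_support_le hc hy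
        have h4 : period σ y = c.support.card := by
          rw [period_eq_card, Equiv.Perm.cycle_is_cycleOf hy hc, ← Fintype.card_coe, ← Nat.card_eq_fintype_card]
          refine Nat.card_congr (Equiv.subtypeEquivRight fun z => ?_)
          rw [mem_orbit_iff_sameCycle, Equiv.Perm.mem_support_cycleOf_iff, and_iff_left h3]
        rw [h4]
      rw [h1, Finset.sum_congr rfl h2, Finset.sum_const, nsmul_eq_mul]
      have h5 : (c.support.card : ℚ) ≠ 0 := by
        have := (Equiv.Perm.mem_cycleFactorsFinset_iff.1 hc).1.two_le_card_support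
        exact Nat.cast_ne_zero.2 (by omega)
      field_simp
      simp
  have h1 : ((orb σ + σ.support.card : ℕ) : ℚ) = ((Fintype.card X + Multiset.card σ.cycleType : ℕ) : ℚ) := by
    push_cast
    rw [h0]
    ring
  exact_mod_cast h1

theorem orb_parity [Fintype X] [DecidableEq X] {σ : Equiv.Perm X} (h : Equiv.Perm.sign σ = 1) :
    orb σ % 2 = Fintype.card X % 2 := by
  have h1 := orb_eq_cycle σ
  rw [Equiv.Perm.sign_of_cycleType, Equiv.Perm.sum_cycleType] at h
  have h2 : Even (σ.support.card + Multiset.card σ.cycleType) := by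
    by_contra h3
    rw [Nat.not_even_iff_odd] at h3
    rw [h3.neg_one_pow] at h
    exact absurd h (by decide)
  obtain ⟨k, hk⟩ := h2
  omega

theorem orb_prime [Fintype X] {σ : Equiv.Perm X} {p : ℕ} (hp : p.Prime) (h : σ ^ p = 1) (h1 : σ ≠ 1) :
    ∃ f, f < Fintype.card X ∧ p * orb σ + f = p * f + Fintype.card X := by
  classical
  refine ⟨σ.supportᶜ.card, ?_, ?_⟩
  · rw [Finset.card_compl]
    have h2 : 0 < σ.support.card := by
      rw [Finset.card_pos, Finset.nonempty_iff_ne_empty, Ne, Equiv.Perm.support_eq_empty_iff]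
      exact h1
    have h3 := Finset.card_le_univ σ.support
    omega
  · have hp0 : (p : ℚ) ≠ 0 := Nat.cast_ne_zero.2 hp.ne_zero
    have h0 : (orb σ : ℚ) = σ.support.card / p + σ.supportᶜ.card := by
      rw [orb_eq_sum, ← Finset.sum_add_sum_compl σ.support]
      congr 1
      · have h2 : ∀ y ∈ σ.support, (1 : ℚ) / period σ y = 1 / p := by
          intro y hy
          have h3 : period σ y ∣ p := pow_smul_eq_iff_period_dvd.1 (by rw [h, one_smul])
          rcases (Nat.dvd_prime hp).1 h3 with h4 | h4
          · exact absurd (period_eq_one_iff.1 h4) (Equiv.Perm.mem_support.1 hy)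
          · rw [h4]
        rw [Finset.sum_congr rfl h2, Finset.sum_const, nsmul_eq_mul, mul_one_div]
      · have h2 : ∀ y ∈ σ.supportᶜ, (1 : ℚ) / period σ y = 1 := by
          intro y hy
          rw [Finset.mem_compl, Equiv.Perm.notMem_support] at hy
          rw [period_eq_one_iff.2 hy]
          simp
        rw [Finset.sum_congr rfl h2, Finset.sum_const, nsmul_eq_mul, mul_one]
    have h2 : (Fintype.card X : ℚ) = σ.support.card + σ.supportᶜ.card := by
      rw [← Finset.card_add_card_compl σ.support]
      push_cast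
      rfl
    have h3 : ((p * orb σ + σ.supportᶜ.card : ℕ) : ℚ) = ((p * σ.supportᶜ.card + Fintype.card X : ℕ) : ℚ) := by
      push_cast
      rw [h0, h2]
      field_simp
      ring
    exact_mod_cast h3

section Ree

open Module Cfsg.Agent.H637.JW Cfsg.Agent.H882.Sc

/-- the permutation representation on functions -/
def permRep (X : Type*) : Equiv.Perm X →* Module.End ℚ (X → ℚ) where
  toFun σ := LinearMap.funLeft ℚ ℚ σ.symm
  map_one' := rfl
  map_mul' _ _ := rfl

theorem permRep_apply (σ : Equiv.Perm X) (f : X → ℚ) (x : X) : permRep X σ f x = f (σ.symm x) := rfl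

theorem mem_Fix_perm {σ : Equiv.Perm X} {f : X → ℚ} : f ∈ Fix (permRep X) σ ↔ ∀ x, f (σ x) = f x := by
  rw [mem_Fix]
  constructor
  · intro h x
    have := congrFun h (σ x)
    rw [permRep_apply, Equiv.symm_apply_apply] at this
    exact this.symm
  · intro h
    funext x
    rw [permRep_apply, ← h (σ.symm x), Equiv.apply_symm_apply]

theorem orb_le_finrank [Fintype X] (σ : Equiv.Perm X) : orb σ ≤ finrank ℚ (Fix (permRep X) σ) := by
  classical
  have : Fintype (orbitRel.Quotient (zpowers σ) X) := Fintype.ofFinite _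
  let q : X → orbitRel.Quotient (zpowers σ) X := fun x => Quotient.mk'' x
  let L : (orbitRel.Quotient (zpowers σ) X → ℚ) →ₗ[ℚ] Fix (permRep X) σ :=
    LinearMap.codRestrict _ (LinearMap.funLeft ℚ ℚ q) (by
      intro f
      rw [mem_Fix_perm]
      intro x
      have h1 : q (σ x) = q x := Quotient.sound' ⟨⟨σ, mem_zpowers σ⟩, rfl⟩
      change f (q (σ x)) = f (q x)
      rw [h1])
  have hL : Function.Injective L := by
    intro f g h
    have h1 : LinearMap.funLeft ℚ ℚ q f = LinearMap.funLeft ℚ ℚ q g := congrArg Subtype.val h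
    exact LinearMap.funLeft_injective_of_surjective ℚ ℚ q (fun o => Quotient.exists_rep o) h1
  have h2 := LinearMap.finrank_le_finrank_of_injective hL
  rwa [Module.finrank_fintype_fun_eq_card, ← Nat.card_eq_fintype_card] at h2

/-- **Ree's inequality.** -/
theorem ree [Fintype X] (σ τ : Equiv.Perm X) (htr : ∀ a b : X, ∃ g ∈ closure ({σ, τ} : Set (Equiv.Perm X)), g a = b) :
    orb σ + orb τ + orb (σ * τ) ≤ Fintype.card X + 2 := by
  classical
  have hB : Form (permRep X) (dotProductBilin ℚ ℚ : (X → ℚ) →ₗ[ℚ] (X → ℚ) →ₗ[ℚ] ℚ) := by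
    constructor
    · intro g v w
      change ∑ x, v (g.symm x) * w (g.symm x) = ∑ x, v x * w x
      exact Equiv.sum_comp g.symm (fun x => v x * w x)
    · intro v hv
      funext x
      have := hv (Pi.single x 1)
      simpa using this
  have h1 := scott_form hB σ τ
  have h2 : finrank ℚ (Fix (permRep X) σ ⊓ Fix (permRep X) τ : Submodule ℚ (X → ℚ)) ≤ 1 := by
    have h3 : (Fix (permRep X) σ ⊓ Fix (permRep X) τ : Submodule ℚ (X → ℚ)) ≤ ℚ ∙ (fun _ => 1) := by
      intro f hf
      have h4 : ∀ g ∈ closure ({σ, τ} : Set (Equiv.Perm X)), ∀ x, f (g x) = f x := by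
        intro g hg
        induction hg using closure_induction with
        | mem g hg =>
          rcases hg with rfl | rfl
          · exact mem_Fix_perm.1 hf.1
          · exact mem_Fix_perm.1 hf.2
        | one => intro x; rfl
        | mul g h _ _ hg hh => intro x; rw [Equiv.Perm.mul_apply, hg, hh]
        | inv g _ hg => intro x; rw [← hg (g⁻¹ x), ← Equiv.Perm.mul_apply, mul_inv_cancel, Equiv.Perm.one_apply]
      rw [Submodule.mem_span_singleton]
      rcases isEmpty_or_nonempty X with hX | ⟨⟨a⟩⟩
      · exact ⟨0, Subsingleton.elim _ _⟩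
      · refine ⟨f a, funext fun b => ?_⟩
        obtain ⟨g, hg, rfl⟩ := htr a b
        rw [h4 g hg]
        simp
    exact (Submodule.finrank_mono h3).trans (finrank_span_le_card _ |>.trans (by simp))
  have h5 := orb_le_finrank σ
  have h6 := orb_le_finrank τ
  have h7 := orb_le_finrank (σ * τ)
  rw [Module.finrank_fintype_fun_eq_card] at h1
  omega

end Ree

end Cfsg.Agent.FP3.Red
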