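import Mathlib
import Cfsg.Agent.FP3.Defs
import Cfsg.Agent.FP3.Red.Orb
import Cfsg.Agent.SmallSimple.Embed

/-!
# A product of simple groups acting without fixed points has an element with few cycles (helper94)
-/

set_option autoImplicit false

namespace Cfsg.Agent.FP3.Red

open MulAction Subgroup
open scoped commutatorElement

/-- sums over a transitive action -/
theorem sum_trans {M X : Type*} [Group M] [Fintype M] [Fintype X] [MulAction M X] [IsPretransitive M X] (x0 : X)
    (F : X → ℚ) : (Fintype.card X : ℚ) * ∑ m : M, F (m • x0) = Fintype.card M * ∑ x, F x := by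
  have h1 : ∀ x : X, ∑ m : M, F (m • x) = ∑ m : M, F (m • x0) := by
    intro x
    obtain ⟨n, rfl⟩ := exists_smul_eq M x0 x
    rw [← Equiv.sum_comp (Equiv.mulRight n) (fun m : M => F (m • x0))]
    apply Finset.sum_congr rfl
    intro m _
    rw [Equiv.coe_mulRight, mul_smul]
  have h2 : ∀ m : M, ∑ x : X, F (m • x) = ∑ x, F x := fun m => Equiv.sum_comp (toPerm m) F
  calc (Fintype.card X : ℚ) * ∑ m : M, F (m • x0) = ∑ x : X, ∑ m : M, F (m • x) := by
        rw [Finset.sum_congr rfl (fun x _ => h1 x), Finset.sum_const, Finset.card_univ, nsmul_eq_mul]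
    _ = ∑ m : M, ∑ x : X, F (m • x) := Finset.sum_comm
    _ = Fintype.card M * ∑ x, F x := by
        rw [Finset.sum_congr rfl (fun m _ => h2 m), Finset.sum_const, Finset.card_univ, nsmul_eq_mul]

/-- the number of cycles on `Δ` is bounded by the numbers of cycles on quotients of the orbits -/
theorem double_count {M Δ : Type*} [Group M] [Finite M] [Fintype Δ] [MulAction M Δ] (Y : Δ → Subgroup M) (d : ℕ)
    (hd : ∀ δ, (Y δ).index = d) (hst : ∀ δ, stabilizer M δ ≤ Y δ) (g : M) :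
    d * orb (toPerm g : Equiv.Perm Δ) ≤ ∑ δ, orb (toPerm g : Equiv.Perm (M ⧸ Y δ)) := by
  classical
  have := Fintype.ofFinite M
  have hM : (0 : ℚ) < Fintype.card M := Nat.cast_pos.2 Fintype.card_pos
  have h1 : (Fintype.card M : ℚ) * orb (toPerm g : Equiv.Perm Δ) =
      ∑ δ : Δ, ∑ m : M, (1 : ℚ) / period (toPerm g : Equiv.Perm Δ) (m • δ) := by
    rw [Finset.sum_comm, orb_eq_sum]
    have h2 : ∀ m : M, ∑ δ : Δ, (1 : ℚ) / period (toPerm g : Equiv.Perm Δ) (m • δ) =
        ∑ δ : Δ, (1 : ℚ) / period (toPerm g : Equiv.Perm Δ) δ :=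
      fun m => Equiv.sum_comp (toPerm m) (fun δ : Δ => (1 : ℚ) / period (toPerm g : Equiv.Perm Δ) δ)
    rw [Finset.sum_congr rfl (fun m _ => h2 m), Finset.sum_const, Finset.card_univ, nsmul_eq_mul]
  have h2 : ∀ δ : Δ, (d : ℚ) * ∑ m : M, (1 : ℚ) / period (toPerm g : Equiv.Perm Δ) (m • δ) ≤
      Fintype.card M * orb (toPerm g : Equiv.Perm (M ⧸ Y δ)) := by
    intro δ
    have := Fintype.ofFinite (M ⧸ Y δ)
    have h3 : (d : ℚ) = Fintype.card (M ⧸ Y δ) := by
      rw [← hd δ, Subgroup.index, Nat.card_eq_fintype_card]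
    rw [orb_eq_sum, ← sum_trans ((1 : M) : M ⧸ Y δ), h3]
    apply mul_le_mul_of_nonneg_left _ (Nat.cast_nonneg _)
    apply Finset.sum_le_sum
    intro m _
    apply one_div_le_one_div_of_le (Nat.cast_pos.2 (period_pos' _ _))
    apply Nat.cast_le.2
    apply period_le_of_fixed (period_pos' (toPerm g : Equiv.Perm Δ) (m • δ))
    set n := period (toPerm g : Equiv.Perm Δ) (m • δ) with hn
    have h4 : (toPerm g : Equiv.Perm Δ) ^ n • (m • δ) = m • δ := pow_period_smul _ _
    have h5 : (toPerm g : Equiv.Perm Δ) ^ n = toPerm (g ^ n) := (map_pow (toPermHom M Δ) g n).symm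
    have h6 : (toPerm g : Equiv.Perm (M ⧸ Y δ)) ^ n = toPerm (g ^ n) := (map_pow (toPermHom M (M ⧸ Y δ)) g n).symm
    rw [h5] at h4
    rw [h6]
    have h7 : m⁻¹ * g ^ n * m ∈ stabilizer M δ := by
      rw [mem_stabilizer_iff, mul_smul, mul_smul, inv_smul_eq_iff]
      exact h4
    change ((g ^ n * (m * 1) : M) : M ⧸ Y δ) = ((m * 1 : M) : M ⧸ Y δ)
    rw [eq_comm, QuotientGroup.eq, mul_one, ← mul_assoc]
    exact hst δ h7
  have h3 : (Fintype.card M : ℚ) * ((d * orb (toPerm g : Equiv.Perm Δ) : ℕ) : ℚ) ≤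
      Fintype.card M * ((∑ δ, orb (toPerm g : Equiv.Perm (M ⧸ Y δ)) : ℕ) : ℚ) := by
    push_cast
    rw [mul_left_comm, h1, Finset.mul_sum, Finset.mul_sum]
    exact Finset.sum_le_sum fun δ _ => h2 δ
  exact_mod_cast le_of_mul_le_mul_left h3 hM

/-- averaging over a product -/
theorem avg {I J Δ : Type*} [Fintype I] [DecidableEq I] [Fintype J] [Nonempty J] [Fintype Δ] (F : Δ → (I → J) → ℕ) (B : ℕ)
    (h : ∀ δ, ∃ i, ∀ f : I → J, ∑ j, F δ (Function.update f i j) ≤ Fintype.card J * B) :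
    ∃ f : I → J, ∑ δ, F δ f ≤ Fintype.card Δ * B := by
  classical
  have h1 : ∀ δ, ∑ f : I → J, F δ f ≤ Fintype.card (I → J) * B := by
    intro δ
    obtain ⟨i, hi⟩ := h δ
    let e : (I → J) × J ≃ (I → J) × J :=
      { toFun := fun p => (Function.update p.1 i p.2, p.1 i)
        invFun := fun p => (Function.update p.1 i p.2, p.1 i)
        left_inv := fun p => by simp
        right_inv := fun p => by simp }
    have h2 : ∑ p : (I → J) × J, F δ (e p).1 = ∑ p : (I → J) × J, F δ p.1 := Equiv.sum_comp e (fun p => F δ p.1)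
    rw [Fintype.sum_prod_type, Fintype.sum_prod_type] at h2
    have h3 : ∑ f : I → J, ∑ j : J, F δ (e (f, j)).1 ≤ ∑ _f : I → J, Fintype.card J * B :=
      Finset.sum_le_sum fun f _ => hi f
    rw [h2] at h3
    simp only [Finset.sum_const, Finset.card_univ, smul_eq_mul] at h3
    rw [← Finset.mul_sum, mul_left_comm] at h3
    exact Nat.le_of_mul_le_mul_left h3 Fintype.card_pos
  by_contra hcon
  push Not at hcon
  have h2 : ∑ _f : I → J, Fintype.card Δ * B < ∑ f : I → J, ∑ δ, F δ f :=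
    Finset.sum_lt_sum_of_nonempty Finset.univ_nonempty fun f _ => hcon f
  have h3 : ∑ δ, ∑ f : I → J, F δ f ≤ ∑ _δ : Δ, Fintype.card (I → J) * B := Finset.sum_le_sum fun δ _ => h1 δ
  rw [Finset.sum_comm] at h3
  simp only [Finset.sum_const, Finset.card_univ, smul_eq_mul] at h2 h3
  rw [mul_left_comm] at h3
  omega

section Local

variable {S X : Type*} [Group S] [IsSimpleGroup S]

theorem commutator_top (hna : ¬ IsMulCommutative S) : commutator S = ⊤ := by
  rcases (inferInstance : (commutator S).Normal).eq_bot_or_eq_top with h | h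
  · exfalso
    apply hna
    rw [commutator_eq_bot_iff_center_eq_top] at h
    exact ⟨⟨fun a b => (mem_center_iff.1 (by rw [h]; exact mem_top b) a)⟩⟩
  · exact h

/-- `x` and `y h` generate a group which contains the image of `S` -/
theorem mem_closure_twist {P : Type*} [Group P] (hna : ¬ IsMulCommutative S) (ψ : S →* P) {h : P}
    (hh : ∀ s, Commute h (ψ s)) {x y : S} (hxy : closure ({x, y} : Set S) = ⊤) (s : S) :
    ψ s ∈ closure ({ψ x, ψ y * h} : Set P) := by
  set K := closure ({ψ x, ψ y * h} : Set P) with hK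
  have h1 : ∀ s : S, ∃ k : ℤ, ψ s * h ^ k ∈ K := by
    intro s
    have hs : s ∈ closure ({x, y} : Set S) := by rw [hxy]; exact mem_top s
    induction hs using closure_induction with
    | mem s hs =>
      rcases hs with rfl | rfl
      · exact ⟨0, by rw [zpow_zero, mul_one]; exact subset_closure (Set.mem_insert _ _)⟩
      · exact ⟨1, by rw [zpow_one]; exact subset_closure (Set.mem_insert_of_mem _ rfl)⟩
    | one => exact ⟨0, by rw [map_one, zpow_zero, mul_one]; exact one_mem _⟩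
    | mul s t _ _ hs ht =>
      obtain ⟨k, hk⟩ := hs
      obtain ⟨l, hl⟩ := ht
      refine ⟨k + l, ?_⟩
      have h2 : ψ (s * t) * h ^ (k + l) = ψ s * h ^ k * (ψ t * h ^ l) := by
        rw [map_mul, zpow_add, mul_assoc (ψ s), mul_assoc (ψ s), ← mul_assoc (h ^ k), ((hh t).zpow_left k).eq,
          mul_assoc]
      rw [h2]
      exact mul_mem hk hl
    | inv s _ hs =>
      obtain ⟨k, hk⟩ := hs
      refine ⟨-k, ?_⟩
      have h2 : ψ s⁻¹ * h ^ (-k) = (ψ s * h ^ k)⁻¹ := by
        rw [mul_inv_rev, ← map_inv, ← zpow_neg, ((hh s⁻¹).zpow_left (-k)).eq]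
      rw [h2]
      exact inv_mem hk
  have h2 : commutator S ≤ K.comap ψ := by
    rw [commutator_def, commutator_le]
    intro a _ b _
    obtain ⟨k, hk⟩ := h1 a
    obtain ⟨l, hl⟩ := h1 b
    rw [mem_comap]
    have h3 : ψ ⁅a, b⁆ = (ψ a * h ^ k) * (ψ b * h ^ l) * (ψ a * h ^ k)⁻¹ * (ψ b * h ^ l)⁻¹ := by
      have e1 : Commute (h ^ k) (ψ b) := (hh b).zpow_left k
      have e2 : Commute (h ^ l) (ψ a)⁻¹ := ((hh a).zpow_left l).inv_right
      have e3 : Commute (h ^ k) (h ^ l) := Commute.zpow_zpow_self h k l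
      rw [map_commutatorElement, commutatorElement_def]
      calc ψ a * ψ b * (ψ a)⁻¹ * (ψ b)⁻¹ = ψ a * ψ b * ((ψ a)⁻¹ * h ^ l) * (h ^ l)⁻¹ * (ψ b)⁻¹ := by group
        _ = ψ a * ψ b * (h ^ l * (ψ a)⁻¹) * (h ^ l)⁻¹ * (ψ b)⁻¹ := by rw [e2.eq]
        _ = ψ a * (ψ b * h ^ k) * h ^ l * (h ^ k)⁻¹ * (ψ a)⁻¹ * (h ^ l)⁻¹ * (ψ b)⁻¹ := by
          have e4 : h ^ k * h ^ l * (h ^ k)⁻¹ = h ^ l := by rw [e3.eq, mul_inv_cancel_right]
          calc ψ a * ψ b * (h ^ l * (ψ a)⁻¹) * (h ^ l)⁻¹ * (ψ b)⁻¹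
              = ψ a * ψ b * (h ^ k * h ^ l * (h ^ k)⁻¹ * (ψ a)⁻¹) * (h ^ l)⁻¹ * (ψ b)⁻¹ := by rw [e4]
            _ = _ := by simp only [mul_assoc]
        _ = ψ a * (h ^ k * ψ b) * h ^ l * (h ^ k)⁻¹ * (ψ a)⁻¹ * (h ^ l)⁻¹ * (ψ b)⁻¹ := by rw [e1.eq]
        _ = _ := by simp only [mul_assoc, mul_inv_rev]
    rw [h3]
    exact mul_mem (mul_mem (mul_mem hk hl) (inv_mem hk)) (inv_mem hl)
  have h3 : s ∈ commutator S := by rw [commutator_top hna]; exact mem_top s
  exact h2 h3

variable [Fintype X]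

theorem ree_twist (hna : ¬ IsMulCommutative S) (ψ : S →* Equiv.Perm X) (htr : ∀ a b : X, ∃ s, ψ s a = b)
    {h : Equiv.Perm X} (hh : ∀ s, Commute h (ψ s)) {x y : S} (hxy : closure ({x, y} : Set S) = ⊤) :
    orb (ψ x) + orb (ψ y * h) + orb (ψ (x * y) * h) ≤ Fintype.card X + 2 := by
  have h1 := ree (ψ x) (ψ y * h) (fun a b => by
    obtain ⟨s, hs⟩ := htr a b
    exact ⟨ψ s, mem_closure_twist hna ψ hh hxy s, hs⟩)
  rwa [← mul_assoc, ← map_mul] at h1

omit [Fintype X] in
theorem inj_of_trans (ψ : S →* Equiv.Perm X) (htr : ∀ a b : X, ∃ s, ψ s a = b) [Nontrivial X] :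
    Function.Injective ψ := by
  rw [← MonoidHom.ker_eq_bot_iff]
  rcases (inferInstance : ψ.ker.Normal).eq_bot_or_eq_top with h | h
  · exact h
  · exfalso
    obtain ⟨a, b, hab⟩ := exists_pair_ne X
    obtain ⟨s, hs⟩ := htr a b
    have h1 : s ∈ ψ.ker := by rw [h]; exact mem_top s
    rw [MonoidHom.mem_ker] at h1
    rw [h1] at hs
    exact hab hs

omit [Fintype X] in
theorem twist_ne_one (hna : ¬ IsMulCommutative S) (ψ : S →* Equiv.Perm X) (hψ : Function.Injective ψ)
    {h : Equiv.Perm X} (hh : ∀ s, Commute h (ψ s)) {x : S} (hx : x ≠ 1) : ψ x * h ≠ 1 := by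
  intro e
  have h1 : x ∈ center S := by
    rw [mem_center_iff]
    intro g
    apply hψ
    rw [map_mul, map_mul, eq_inv_of_mul_eq_one_left e]
    exact ((hh g).inv_left.eq).symm
  rcases (inferInstance : (center S).Normal).eq_bot_or_eq_top with h2 | h2
  · rw [h2, mem_bot] at h1
    exact hx h1
  · exact hna ⟨⟨fun a b => (mem_center_iff.1 (by rw [h2]; exact mem_top b) a)⟩⟩

theorem five_le_card [Finite S] (hna : ¬ IsMulCommutative S) (ψ : S →* Equiv.Perm X) (htr : ∀ a b : X, ∃ s, ψ s a = b)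
    [Nontrivial X] : 5 ≤ Fintype.card X ∧ Fintype.card X ∣ Nat.card S := by
  let _ : MulAction S X := MulAction.compHom X ψ
  have htr' : IsPretransitive S X := ⟨htr⟩
  obtain ⟨a, b, hab⟩ := exists_pair_ne X
  have h1 : (stabilizer S a).index = Fintype.card X := by
    rw [index_stabilizer_of_transitive, Nat.card_eq_fintype_card]
  rw [← h1]
  refine ⟨SmallSimple.Embed.five_le_index hna _ ?_, index_dvd_card _⟩
  intro e
  obtain ⟨s, hs⟩ := htr a b
  have h2 : s ∈ stabilizer S a := by rw [e]; exact mem_top s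
  exact hab (h2.symm.trans hs)

variable [DecidableEq X]

theorem sign_perfect {M : Type*} [Group M] (hM : commutator M = ⊤) (φ : M →* Equiv.Perm X) (m : M) :
    Equiv.Perm.sign (φ m) = 1 := by
  have h1 : commutator M ≤ (Equiv.Perm.sign.comp φ).ker := Abelianization.commutator_subset_ker _
  have h2 : m ∈ commutator M := by rw [hM]; exact mem_top m
  exact h1 h2

theorem local_two (hna : ¬ IsMulCommutative S) (ψ : S →* Equiv.Perm X) (htr : ∀ a b : X, ∃ s, ψ s a = b)
    {h : Equiv.Perm X} (hh : ∀ s, Commute h (ψ s)) {x y : S} (hx : orderOf x = 2)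
    (hxy : closure ({x, y} : Set S) = ⊤) (h6 : 6 ≤ Fintype.card X) (h8 : Fintype.card X ≠ 8) :
    3 * orb (ψ y * h) + 3 * orb (ψ (x * y) * h) ≤ 2 * Fintype.card X := by
  have : Nontrivial X := Fintype.one_lt_card_iff_nontrivial.1 (by omega)
  have h1 := ree_twist hna ψ htr hh hxy
  have hx1 : x ≠ 1 := by
    rintro rfl
    rw [orderOf_one] at hx
    omega
  obtain ⟨f, hf, hf'⟩ := orb_prime (σ := ψ x) Nat.prime_two (by rw [← map_pow, ← hx, pow_orderOf_eq_one, map_one])
    (fun e => hx1 (inj_of_trans ψ htr (e.trans (map_one ψ).symm)))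
  have h2 := orb_parity (sign_perfect (commutator_top hna) ψ x)
  omega

theorem local_three (hna : ¬ IsMulCommutative S) (ψ : S →* Equiv.Perm X) (htr : ∀ a b : X, ∃ s, ψ s a = b)
    {h : Equiv.Perm X} (hh : ∀ s, Commute h (ψ s)) (hs : Equiv.Perm.sign h = 1) {x y : S} {p : ℕ} (hp : p.Prime)
    (hp2 : p ≠ 2) (hp7 : p ≠ 7) (hx : orderOf x = p) (hxy : closure ({x, y} : Set S) = ⊤) (h8 : Fintype.card X = 8) :
    3 * orb (ψ y * h) + 3 * orb (ψ (x * y) * h) + 3 * orb (ψ (x * (x * y)) * h) ≤ 3 * Fintype.card X := by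
  have : Nontrivial X := Fintype.one_lt_card_iff_nontrivial.1 (by omega)
  have hψ := inj_of_trans ψ htr
  have key : ∀ z : S, orderOf z = p → 4 ≤ orb (ψ z) := by
    intro z hz
    have hz1 : z ≠ 1 := by
      rintro rfl
      rw [orderOf_one] at hz
      exact hp.one_lt.ne hz
    obtain ⟨f, hf, hf'⟩ := orb_prime (σ := ψ z) hp (by rw [← map_pow, ← hz, pow_orderOf_eq_one, map_one])
      (fun e => hz1 (hψ (e.trans (map_one ψ).symm)))
    have h2 := orb_parity (sign_perfect (commutator_top hna) ψ z)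
    rw [h8] at hf hf' h2
    have h3 : p ∣ 8 - f := by
      have h4 : f ≤ orb (ψ z) := by
        by_contra h5
        have h6 : p * (orb (ψ z) + 1) ≤ p * f := Nat.mul_le_mul_left p (by omega)
        have h7 := hp.two_le
        rw [mul_add] at h6
        omega
      refine ⟨orb (ψ z) - f, ?_⟩
      rw [Nat.mul_sub]
      omega
    have h4 : p ≤ 8 := (Nat.le_of_dvd (by omega) h3).trans (Nat.sub_le _ _)
    have h5 := hp.two_le
    interval_cases p
    · omega
    · omega
    · exact absurd hp (by norm_num)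
    · omega
    · exact absurd hp (by norm_num)
    · omega
    · exact absurd hp (by norm_num)
  have hcop : (orderOf x).Coprime 2 := by
    rw [hx]
    exact (Nat.coprime_primes hp Nat.prime_two).2 hp2
  have hx2 : orderOf (x * x) = p := by
    rw [← pow_two, hcop.orderOf_pow, hx]
  have hg2 : closure ({x, x * y} : Set S) = ⊤ := by
    rw [eq_top_iff, ← hxy, closure_le]
    have e1 : x ∈ closure ({x, x * y} : Set S) := subset_closure (Set.mem_insert _ _)
    have e2 : x * y ∈ closure ({x, x * y} : Set S) := subset_closure (Set.mem_insert_of_mem _ rfl)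
    rintro z (rfl | rfl)
    · exact e1
    · have e3 := mul_mem (inv_mem e1) e2
      rwa [inv_mul_cancel_left] at e3
  have hg3 : closure ({x * x, y} : Set S) = ⊤ := by
    rw [eq_top_iff, ← hxy, closure_le]
    have e1 : x * x ∈ closure ({x * x, y} : Set S) := subset_closure (Set.mem_insert _ _)
    have e2 : y ∈ closure ({x * x, y} : Set S) := subset_closure (Set.mem_insert_of_mem _ rfl)
    rintro z (rfl | rfl)
    · obtain ⟨m, hm⟩ := exists_pow_eq_self_of_coprime hcop.symm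
      have e3 := pow_mem e1 m
      rw [← pow_two] at e3
      rw [← hm, ← pow_two]
      rw [hm]
      rwa [hm] at e3
    · exact e2
  have h1 := ree_twist hna ψ htr hh hxy
  have h2 := ree_twist hna ψ htr hh hg2
  have h3 := ree_twist hna ψ htr hh hg3
  rw [mul_assoc x x y] at h3
  have h4 := key x hx
  have h5 := key _ hx2
  have hsg : ∀ s, orb (ψ s * h) % 2 = Fintype.card X % 2 := fun s =>
    orb_parity (by rw [map_mul, sign_perfect (commutator_top hna) ψ s, hs, mul_one])
  have h6 := hsg y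
  have h7 := hsg (x * y)
  have h9 := hsg (x * (x * y))
  omega

omit [DecidableEq X] in
theorem local_one (hna : ¬ IsMulCommutative S) (ψ : S →* Equiv.Perm X) (htr : ∀ a b : X, ∃ s, ψ s a = b)
    {h : Equiv.Perm X} (hh : ∀ s, Commute h (ψ s)) {x : S} (hx : x ≠ 1) {p : ℕ} (hp : (ψ x * h) ^ p = 1)
    (hd : (p = 5 ∧ Fintype.card X = 5) ∨ (p = 7 ∧ Fintype.card X = 8)) : 3 * orb (ψ x * h) ≤ Fintype.card X := by
  have : Nontrivial X := Fintype.one_lt_card_iff_nontrivial.1 (by omega)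
  have h1 := twist_ne_one hna ψ (inj_of_trans ψ htr) hh hx
  rcases hd with ⟨rfl, hd⟩ | ⟨rfl, hd⟩
  · obtain ⟨f, hf, hf'⟩ := orb_prime (by norm_num) hp h1
    omega
  · obtain ⟨f, hf, hf'⟩ := orb_prime (by norm_num) hp h1
    omega

end Local

end Cfsg.Agent.FP3.Red
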