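import Mathlib
import Cfsg.Agent.FP3.Red.Avg

/-!
# A product of simple groups acting without fixed points has an element with few cycles, part 2 (helper94)
-/

set_option autoImplicit false

namespace Cfsg.Agent.FP3.Red

open MulAction Subgroup

section

variable {I : Type*} [Fintype I] [DecidableEq I] {S : I → Type*} [∀ i, Group (S i)]

/-- one of the factors is transitive on the cosets of a maximal subgroup -/
theorem exists_factor_trans (Y : Subgroup (∀ i, S i)) (hY : IsCoatom Y) :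
    ∃ i, ∀ a b : (∀ i, S i) ⧸ Y, ∃ s : S i, (Pi.mulSingle i s : ∀ i, S i) • a = b := by
  obtain ⟨i, s0, hs0⟩ : ∃ (i : I) (s : S i), (Pi.mulSingle i s : ∀ i, S i) ∉ Y := by
    by_contra hcon
    push Not at hcon
    apply hY.1
    rw [eq_top_iff]
    intro g _
    exact pi_mem_of_mulSingle_mem g fun i => hcon i (g i)
  refine ⟨i, ?_⟩
  set K : Subgroup (∀ i, S i) := (MonoidHom.mulSingle S i).range with hK
  have hconj : ∀ (m : ∀ i, S i) (s : S i), m * Pi.mulSingle i s * m⁻¹ = Pi.mulSingle i (m i * s * (m i)⁻¹) := by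
    intro m s
    funext j
    by_cases hj : j = i
    · subst hj
      simp
    · simp [Pi.mulSingle_eq_of_ne hj]
  have hKn : K.Normal := ⟨by
    rintro _ ⟨s, rfl⟩ m
    exact ⟨m i * s * (m i)⁻¹, (hconj m s).symm⟩⟩
  have htop : K ⊔ Y = ⊤ := by
    apply hY.2
    refine lt_of_le_of_ne le_sup_right fun e => hs0 ?_
    rw [e]
    exact mem_sup_left ⟨s0, rfl⟩
  intro a b
  obtain ⟨m, rfl⟩ := QuotientGroup.mk_surjective a
  obtain ⟨n, rfl⟩ := QuotientGroup.mk_surjective b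
  have h1 : m⁻¹ * n ∈ ((K ⊔ Y : Subgroup (∀ i, S i)) : Set (∀ i, S i)) := by rw [htop]; trivial
  rw [normal_mul] at h1
  obtain ⟨_, ⟨s, rfl⟩, y, hy, hky⟩ := h1
  refine ⟨m i * s * (m i)⁻¹, ?_⟩
  rw [← hconj]
  change ((m * Pi.mulSingle i s * m⁻¹ * m : ∀ i, S i) : (∀ i, S i) ⧸ Y) = n
  rw [QuotientGroup.eq, inv_mul_cancel_right, mul_inv_rev, mul_assoc, ← hky]
  change (Pi.mulSingle i s : ∀ i, S i)⁻¹ * (Pi.mulSingle i s * y) ∈ Y
  rwa [inv_mul_cancel_left]

omit [Fintype I] in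
theorem update_eq (g : ∀ i, S i) (i : I) (s : S i) :
    Function.update g i s = Pi.mulSingle i s * Function.update g i 1 := by
  funext j
  by_cases hj : j = i
  · subst hj
    simp
  · simp [Pi.mulSingle_eq_of_ne hj, Function.update_of_ne hj]

omit [Fintype I] in
theorem update_commute (g : ∀ i, S i) (i : I) (s : S i) : Commute (Function.update g i 1) (Pi.mulSingle i s) := by
  funext j
  by_cases hj : j = i
  · subst hj
    simp
  · simp [Pi.mulSingle_eq_of_ne hj]

variable [∀ i, Finite (S i)]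

/-- the averaging step -/
theorem few_of_local {Δ : Type*} [Fintype Δ] [MulAction (∀ i, S i) Δ] {d : ℕ} (hd0 : 0 < d)
    (Y : Δ → Subgroup (∀ i, S i)) (hd : ∀ δ, (Y δ).index = d) (hst : ∀ δ, stabilizer (∀ i, S i) δ ≤ Y δ)
    {J : Type*} [Fintype J] [Nonempty J] (a : ∀ i, J → S i)
    (h : ∀ δ, ∃ i, ∀ f : I → J, ∑ j, 3 * orb (toPermHom (∀ i, S i) ((∀ i, S i) ⧸ Y δ) (Pi.mulSingle i (a i j)) *
      toPermHom (∀ i, S i) ((∀ i, S i) ⧸ Y δ) (Function.update (fun k => a k (f k)) i 1)) ≤ Fintype.card J * d) :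
    ∃ g : ∀ i, S i, 3 * orb (toPerm g : Equiv.Perm Δ) ≤ Fintype.card Δ := by
  obtain ⟨f, hf⟩ := avg (fun (δ : Δ) (f : I → J) =>
      3 * orb (toPerm (fun k => a k (f k) : ∀ i, S i) : Equiv.Perm ((∀ i, S i) ⧸ Y δ))) d (by
    intro δ
    obtain ⟨i, hi⟩ := h δ
    refine ⟨i, fun f => le_of_eq_of_le ?_ (hi f)⟩
    apply Finset.sum_congr rfl
    intro j _
    rw [← map_mul, ← update_eq]
    have h1 : (fun k => a k (Function.update f i j k)) = Function.update (fun k => a k (f k)) i (a i j) := by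
      funext k
      by_cases hk : k = i
      · subst hk
        simp
      · simp [Function.update_of_ne hk]
    rw [h1]
    rfl)
  refine ⟨fun k => a k (f k), ?_⟩
  have h1 := double_count Y d hd hst (fun k => a k (f k))
  rw [← Finset.mul_sum] at hf
  have h2 : d * (3 * orb (toPerm (fun k => a k (f k) : ∀ i, S i) : Equiv.Perm Δ)) ≤ d * Fintype.card Δ := by
    rw [mul_left_comm, mul_comm d (Fintype.card Δ)]
    exact (Nat.mul_le_mul_left 3 h1).trans hf
  exact Nat.le_of_mul_le_mul_left h2 hd0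

variable [∀ i, IsSimpleGroup (S i)]

theorem exists_few (hna : ∀ i, ¬ IsMulCommutative (S i)) (hgen : ∀ i, GenRow (S i)) (hev : ∀ i, 2 ∣ Nat.card (S i))
    (hcard : ∀ i j, Nat.card (S i) = Nat.card (S j)) {Δ : Type*} [Fintype Δ] [Nonempty Δ] [MulAction (∀ i, S i) Δ]
    (d : ℕ) (Y : Δ → Subgroup (∀ i, S i)) (hY : ∀ δ, IsCoatom (Y δ)) (hd : ∀ δ, (Y δ).index = d)
    (hst : ∀ δ, stabilizer (∀ i, S i) δ ≤ Y δ) :
    ∃ g : ∀ i, S i, 3 * orb (toPerm g : Equiv.Perm Δ) ≤ Fintype.card Δ := by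
  classical
  choose ι hι using fun δ => exists_factor_trans (Y δ) (hY δ)
  have hfin : ∀ δ, Fintype ((∀ i, S i) ⧸ Y δ) := fun δ => Fintype.ofFinite _
  have hX : ∀ δ, Fintype.card ((∀ i, S i) ⧸ Y δ) = d := fun δ => by
    rw [← hd δ, Subgroup.index, Nat.card_eq_fintype_card]
  let φ : ∀ δ, (∀ i, S i) →* Equiv.Perm ((∀ i, S i) ⧸ Y δ) := fun δ => toPermHom _ _
  let ψ : ∀ δ, S (ι δ) →* Equiv.Perm ((∀ i, S i) ⧸ Y δ) := fun δ => (φ δ).comp (MonoidHom.mulSingle S (ι δ))
  have htr : ∀ δ (a b : (∀ i, S i) ⧸ Y δ), ∃ s, ψ δ s a = b := fun δ a b => hι δ a b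
  have hcm : ∀ δ (g : ∀ i, S i) s, Commute (φ δ (Function.update g (ι δ) 1)) (ψ δ s) := fun δ g s =>
    (update_commute g (ι δ) s).map (φ δ)
  have hperf : commutator (∀ i, S i) = ⊤ := by
    rw [commutator_def, ← pi_top Set.univ, commutator_pi_pi_of_finite]
    have h1 : (fun i => ⁅(⊤ : Subgroup (S i)), (⊤ : Subgroup (S i))⁆) = fun i => ⊤ :=
      funext fun i => commutator_top (hna i)
    rw [h1]
  obtain ⟨δ0⟩ : Nonempty Δ := inferInstance
  have hnt : ∀ δ, Nontrivial ((∀ i, S i) ⧸ Y δ) := by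
    intro δ
    rw [← Fintype.one_lt_card_iff_nontrivial, hX, ← hd δ]
    exact one_lt_index_of_ne_top (hY δ).1
  obtain ⟨h5, hdvd⟩ := five_le_card (hna _) (ψ δ0) (htr δ0)
  rw [hX] at h5 hdvd
  have helt : ∀ p : ℕ, p.Prime → p ∣ Nat.card (S (ι δ0)) → ∀ i, ∃ x : S i, orderOf x = p := by
    intro p hp hpd i
    have := Fact.mk hp
    exact exists_prime_orderOf_dvd_card' p (by rwa [hcard i (ι δ0)])
  have hne : ∀ {p : ℕ}, p.Prime → ∀ {i} {x : S i}, orderOf x = p → x ≠ 1 := by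
    intro p hp i x hx e
    rw [e, orderOf_one] at hx
    exact hp.one_lt.ne hx
  by_cases hone : ∃ p : ℕ, p ∣ Nat.card (S (ι δ0)) ∧ ((p = 5 ∧ d = 5) ∨ (p = 7 ∧ d = 8))
  · obtain ⟨p, hpd, hp⟩ := hone
    have hpp : p.Prime := by
      rcases hp with ⟨rfl, -⟩ | ⟨rfl, -⟩ <;> norm_num
    choose x hx using helt p hpp hpd
    refine few_of_local (by omega) Y hd hst (J := Unit) (fun i _ => x i) fun δ => ⟨ι δ, fun f => ?_⟩
    rw [Fintype.sum_unique, Fintype.card_unique, one_mul, ← hX δ]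
    refine local_one (hna _) (ψ δ) (htr δ) (hcm δ _) (hne hpp (hx _)) (p := p) ?_ (by rwa [hX])
    change (φ δ (Pi.mulSingle (ι δ) (x (ι δ))) * φ δ (Function.update x (ι δ) 1)) ^ p = 1
    rw [← map_mul, ← update_eq, Function.update_eq_self, ← map_pow]
    have h1 : x ^ p = 1 := by
      funext i
      rw [Pi.pow_apply, ← hx i, pow_orderOf_eq_one, Pi.one_apply]
    rw [h1, map_one]
  · push Not at hone
    have hd5 : d ≠ 5 := by
      rintro rfl
      exact (hone 5 hdvd).1 rfl rfl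
    by_cases hd8 : d = 8
    · obtain ⟨p, hp, hpd, hp2⟩ : ∃ p : ℕ, p.Prime ∧ p ∣ Nat.card (S (ι δ0)) ∧ p ≠ 2 := by
        by_contra hcon
        push Not at hcon
        have h2 : IsPGroup 2 (S (ι δ0)) :=
          IsPGroup.of_card (Nat.eq_prime_pow_of_unique_prime_dvd Nat.card_pos.ne' fun hq hqd => hcon _ hq hqd)
        have h3 := h2.center_nontrivial
        rcases (inferInstance : (center (S (ι δ0))).Normal).eq_bot_or_eq_top with h4 | h4
        · rw [h4] at h3
          exact not_subsingleton (⊥ : Subgroup (S (ι δ0))) inferInstance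
        · exact hna _ ⟨⟨fun a b => (mem_center_iff.1 (by rw [h4]; exact mem_top b) a)⟩⟩
      have hp7 : p ≠ 7 := fun e => (hone p hpd).2 e hd8
      choose x hx using helt p hp hpd
      choose y hy using fun i => hgen i (x i) (hne hp (hx i))
      refine few_of_local (by omega) Y hd hst (J := Fin 3) (fun i => ![y i, x i * y i, x i * (x i * y i)])
        fun δ => ⟨ι δ, fun f => ?_⟩
      rw [Fin.sum_univ_three, Fintype.card_fin, ← hX δ]
      exact local_three (hna _) (ψ δ) (htr δ) (hcm δ _) (sign_perfect hperf (φ δ) _) hp hp2 hp7 (hx _) (hy _)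
        (by rw [hX, hd8])
    · choose x hx using helt 2 Nat.prime_two (hev _)
      choose y hy using fun i => hgen i (x i) (hne Nat.prime_two (hx i))
      refine few_of_local (by omega) Y hd hst (J := Fin 2) (fun i => ![y i, x i * y i]) fun δ => ⟨ι δ, fun f => ?_⟩
      rw [Fin.sum_univ_two, Fintype.card_fin, ← hX δ]
      exact local_two (hna _) (ψ δ) (htr δ) (hcm δ _) (hx _) (hy _) (by rw [hX]; omega) (by rwa [hX])

end

end Cfsg.Agent.FP3.Red
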