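import Cfsg.Agent.FP3.Red.Main
import Cfsg.Agent.FP3.Red.PlugEv
import Cfsg.Agent.FP3.Aff.Final

/-!
# S3519 from the boxes GEN, SCH, CENT and AS (helper94)
-/

set_option autoImplicit false

namespace Cfsg.Agent.FP3

theorem main_of_boxes.{u, v} (hG : Gen) (hS : Sch) (hC : Cent) (hAS : AS) : Main.{u, v} :=
  main_of (aff hG) (reg hG hC hS) hC hAS

end Cfsg.Agent.FP3
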