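import Mathlib
import Cfsg.Agent.FP3.Red.Few
import Cfsg.Agent.PermutationGroups.OnanScott
import Cfsg.Agent.H284.EP.Basic

/-!
# The regular non-abelian case, part 1 (helper94)
-/

set_option autoImplicit false

namespace Cfsg.Agent.FP3

/-- box EV (from S0205): non-abelian simple groups have even order -/
def Ev : Prop := ∀ (T : Type) [Group T] [Finite T] [IsSimpleGroup T], ¬ IsMulCommutative T → 2 ∣ Nat.card T

namespace Red

open MulAction Subgroup Cfsg.Agent.PermutationGroups.OnanScott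

theorem exists_min_normal' {G : Type*} [Group G] [Finite G] [Nontrivial G] : ∃ N : Subgroup G, N.Normal ∧ N ≠ ⊥ ∧
    ∀ M : Subgroup G, M.Normal → M ≤ N → M = ⊥ ∨ M = N := by
  obtain ⟨N, ⟨hN, hNne⟩, hmin⟩ := WellFounded.has_min (wellFounded_lt (α := Subgroup G))
    {N | N.Normal ∧ N ≠ ⊥} ⟨⊤, inferInstance, top_ne_bot⟩
  refine ⟨N, hN, hNne, fun M hM hMN => ?_⟩
  by_contra hcon
  push Not at hcon
  exact hmin M ⟨hM, hcon.1⟩ (lt_of_le_of_ne hMN hcon.2)

theorem not_comm_of_ne {T : Type*} [Group T] (h : ∃ a b : T, a * b ≠ b * a) : ¬ IsMulCommutative T := by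
  intro hc
  obtain ⟨a, b, hab⟩ := h
  exact hab (hc.is_comm.comm a b)

theorem card_eq_of_conj {G : Type*} [Group G] {A B : Subgroup G} {g : G} (h : B = A.map (MulAut.conj g).toMonoidHom) :
    Nat.card A = Nat.card B := by
  rw [h]
  exact Nat.card_congr (A.equivMapOfInjective _ (MulAut.conj g).injective).toEquiv

/-- a non-abelian minimal normal subgroup of a transitive group which moves a point -/
theorem few_normal (hE : Ev) (hG : Gen) {H : Type} [Group H] [Finite H] {Δ : Type*} [Fintype Δ] [MulAction H Δ]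
    [IsPretransitive H Δ] (M : Subgroup H) [M.Normal] (hmin : ∀ L : Subgroup H, L.Normal → L ≤ M → L = ⊥ ∨ L = M)
    (hna : ¬ ∀ x ∈ M, ∀ y ∈ M, Commute x y) {δ0 : Δ} (hmove : ∃ x ∈ M, x • δ0 ≠ δ0) :
    ∃ g ∈ M, 3 * orb (toPerm g : Equiv.Perm Δ) ≤ Fintype.card Δ := by
  classical
  obtain ⟨l, S, e, -, hsimple, hSna, -, -, -, -, htrans, -, -⟩ := exists_coordinates M hmin hna
  let θ : (∀ j, S j) →* H := M.subtype.comp e.symm.toMonoidHom
  let _ : MulAction (∀ j, S j) Δ := MulAction.compHom Δ θ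
  have hsm : ∀ (x : ∀ j, S j) (δ : Δ), x • δ = ((e.symm x : M) : H) • δ := fun _ _ => rfl
  have hne : stabilizer (∀ j, S j) δ0 ≠ ⊤ := by
    intro h
    obtain ⟨x, hx, hxδ⟩ := hmove
    apply hxδ
    have h1 : e ⟨x, hx⟩ ∈ stabilizer (∀ j, S j) δ0 := by rw [h]; exact mem_top _
    rw [mem_stabilizer_iff, hsm, MulEquiv.symm_apply_apply] at h1
    exact h1
  obtain ⟨Y0, hY0, hle⟩ := (eq_top_or_exists_le_coatom (stabilizer (∀ j, S j) δ0)).resolve_left hne
  choose h hh using fun δ => exists_smul_eq H δ δ0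
  let α : Δ → (∀ j, S j) ≃* (∀ j, S j) := fun δ => (e.symm.trans (MulAut.conjNormal (h δ) : MulAut M)).trans e
  have : Nonempty Δ := ⟨δ0⟩
  obtain ⟨g, hg⟩ := exists_few (S := fun j => S j) (fun j => not_comm_of_ne (hSna j))
    (fun j => hG (S j) (not_comm_of_ne (hSna j))) (fun j => hE (S j) (not_comm_of_ne (hSna j)))
    (fun i j => by
      obtain ⟨g, hg⟩ := htrans i j
      exact card_eq_of_conj hg) Y0.index (fun δ : Δ => Y0.comap (α δ).toMonoidHom)
    (fun δ => ((α δ).comapSubgroup.isCoatom_iff Y0).2 hY0)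
    (fun δ => index_comap_of_surjective _ (α δ).surjective)
    (fun δ x hx => by
      apply hle
      rw [mem_stabilizer_iff, hsm] at hx
      change ((e.symm (e (MulAut.conjNormal (h δ) (e.symm x))) : M) : H) • δ0 = δ0
      rw [MulEquiv.symm_apply_apply, MulAut.conjNormal_apply, mul_smul, mul_smul, ← hh δ, inv_smul_smul, hx])
  have h1 : (toPerm (θ g) : Equiv.Perm Δ) = toPerm g := Equiv.ext fun _ => rfl
  exact ⟨θ g, (e.symm g).2, by rwa [h1]⟩

/-- a minimal normal subgroup of an irreducible group of automorphisms of a non-abelian group is not abelian -/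
theorem min_not_comm {G : Type*} [Group G] [Finite G] (N H : Subgroup G) [N.Normal]
    (hna : ¬ ∀ x ∈ N, ∀ y ∈ N, Commute x y) (hf : ∀ g : G, (∀ n ∈ N, Commute g n) → g = 1)
    (hirr : ∀ W ≤ N, (∀ h ∈ H, ∀ w ∈ W, h * w * h⁻¹ ∈ W) → W = ⊥ ∨ W = N) (M : Subgroup H) [hM : M.Normal] (hM1 : M ≠ ⊥)
    (hmin : ∀ L : Subgroup H, L.Normal → L ≤ M → L = ⊥ ∨ L = M) : ¬ ∀ x ∈ M, ∀ y ∈ M, Commute x y := by
  intro hab
  obtain ⟨r, hr, hrd⟩ := Nat.exists_prime_and_dvd (fun e : Nat.card M = 1 => hM1 (card_eq_one.1 e))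
  have := Fact.mk hr
  obtain ⟨d, hd⟩ := exists_prime_orderOf_dvd_card' r hrd
  let R0 : Subgroup H :=
    { carrier := {x | x ∈ M ∧ x ^ r = 1}
      one_mem' := ⟨one_mem _, one_pow _⟩
      mul_mem' := by
        rintro x y ⟨hx, hx'⟩ ⟨hy, hy'⟩
        refine ⟨mul_mem hx hy, ?_⟩
        rw [(hab x hx y hy).mul_pow, hx', hy', one_mul]
      inv_mem' := by
        rintro x ⟨hx, hx'⟩
        exact ⟨inv_mem hx, by rw [inv_pow, hx', inv_one]⟩ }
  have hR0 : R0 = M := by
    rcases hmin R0 ⟨fun x hx g => ⟨hM.conj_mem x hx.1 g, by rw [conj_pow, hx.2, mul_one, mul_inv_cancel]⟩⟩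
      (fun x hx => hx.1) with h | h
    · exfalso
      have h1 : (d : H) ∈ R0 := ⟨d.2, by
        have := pow_orderOf_eq_one d
        rw [hd] at this
        exact Subtype.ext_iff.1 this⟩
      rw [h, mem_bot] at h1
      have h2 : d = 1 := Subtype.ext h1
      rw [h2, orderOf_one] at hd
      exact hr.one_lt.ne hd
    · exact h
  let φ : H →* MulAut N := (MulAut.conjNormal (H := N)).comp H.subtype
  have hφ : ∀ (h : H) (n : N), ((φ h n : N) : G) = h * n * (h : G)⁻¹ := fun h n => MulAut.conjNormal_apply _ _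
  have hirr' : ∀ L : Subgroup N, (∀ s ∈ φ.range, ∀ l ∈ L, s l ∈ L) → L = ⊥ ∨ L = ⊤ := by
    intro L hL
    rcases hirr (L.map N.subtype) (map_subtype_le L) (by
      rintro h hh _ ⟨l, hl, rfl⟩
      exact ⟨_, hL _ ⟨⟨h, hh⟩, rfl⟩ l hl, hφ _ _⟩) with h1 | h1
    · left
      rwa [Subgroup.map_eq_bot_iff_of_injective _ N.subtype_injective] at h1
    · right
      apply map_injective N.subtype_injective
      rw [h1, ← MonoidHom.range_eq_map, range_subtype]
  apply hna
  intro x hx y hy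
  have key := H284.reg_core φ.range (M.map φ) hr (by
      rintro _ ⟨s, rfl⟩ _ ⟨t, ht, rfl⟩
      exact ⟨s * t * s⁻¹, hM.conj_mem t ht s, by rw [map_mul, map_mul, map_inv]⟩)
    (by
      rintro ⟨_, t, ht, rfl⟩
      refine ⟨1, Subtype.ext ?_⟩
      have h1 : t ∈ R0 := by rw [hR0]; exact ht
      rw [pow_one]
      change φ t ^ r = 1
      rw [← map_pow, h1.2, map_one])
    (by
      intro n hn
      let C : Subgroup N :=
        { carrier := {n | ∀ ρ ∈ M.map φ, ρ n = n}
          one_mem' := fun ρ _ => map_one ρ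
          mul_mem' := fun {x y} hx hy ρ hρ => by rw [map_mul, hx ρ hρ, hy ρ hρ]
          inv_mem' := fun {x} hx ρ hρ => by rw [map_inv, hx ρ hρ] }
      rcases hirr' C (by
        rintro _ ⟨s, rfl⟩ n hn _ ⟨t, ht, rfl⟩
        have h1 := hn (φ (s⁻¹ * t * s⁻¹⁻¹)) ⟨_, hM.conj_mem t ht s⁻¹, rfl⟩
        have h2 : φ t (φ s n) = φ s (φ (s⁻¹ * t * s⁻¹⁻¹) n) := by
          rw [← MulAut.mul_apply, ← MulAut.mul_apply, ← map_mul, ← map_mul]
          congr 2
          group
        rw [h2, h1]) with h1 | h1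
      · have h2 : n ∈ C := hn
        rwa [h1, mem_bot] at h2
      · exfalso
        apply hM1
        rw [eq_bot_iff]
        intro t ht
        rw [mem_bot]
        apply Subtype.ext
        apply hf
        intro n hn
        have h2 : (⟨n, hn⟩ : N) ∈ C := by rw [h1]; exact mem_top _
        have h3 := congrArg Subtype.val (h2 (φ t) ⟨t, ht, rfl⟩)
        rw [hφ, mul_inv_eq_iff_eq_mul] at h3
        exact h3)
    hirr' ⟨x, hx⟩ ⟨y, hy⟩
  exact congrArg Subtype.val key

end Red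

end Cfsg.Agent.FP3
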